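import Cfsg.Agent.H66.M23.Loc

/-!
# Elements of order 5 of the monomial group `N` of the Monster (helper136)

Every element of order 5 of the monomial group `N` has fixed rank 8, so its centralizer is `5 × HN`.
-/

set_option autoImplicit false
set_option maxRecDepth 100000

namespace Cfsg.Agent.H136.M23.BMon

open Cfsg Cfsg.Agent.H241.Mon Cfsg.Agent.MonsterX.MainBasic
open Cfsg.Agent.LThreeMB (fr XX KChart.pi)
open Cfsg.Agent.MonsterX Cfsg.Agent.MonsterX.InstData Cfsg.Agent.MonsterX.MainPack Cfsg.Agent.MonsterU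
open Subgroup (centralizer zpowers mem_centralizer_singleton_iff)
open Cfsg.Spor (Co1)
open Cfsg.Agent.MonsterX.Conc
open Cfsg.Agent.H66.M23.Loc

/-- signed permutations of the coordinates -/
def Mon (A : Co0) : Prop := ∃ (σ : GolayPt → GolayPt) (s : GolayPt → ℤ), (∀ p, s p = 1 ∨ s p = -1) ∧
  ∀ (v : leechLattice) (p : GolayPt), ((A • v : leechLattice) : GolayPt → ℤ) p = s p * (v : GolayPt → ℤ) (σ p)

theorem Mon.one : Mon 1 := ⟨fun p => p, fun _ => 1, fun _ => Or.inl rfl, fun v p => by rw [one_smul, one_mul]⟩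

theorem Mon.mul {A B : Co0} (hA : Mon A) (hB : Mon B) : Mon (A * B) := by
  obtain ⟨σ, s, hs, h⟩ := hA
  obtain ⟨τ, t, ht, k⟩ := hB
  refine ⟨fun p => τ (σ p), fun p => s p * t (σ p), fun p => ?_, fun v p => ?_⟩
  · rcases hs p with h1 | h1 <;> rcases ht (σ p) with h2 | h2 <;> simp [h1, h2]
  · rw [mul_smul, h, k]
    ring

theorem Mon.pow {A : Co0} (hA : Mon A) (n : ℕ) : Mon (A ^ n) := by
  induction n with
  | zero => rw [pow_zero]; exact Mon.one
  | succ n ih => rw [pow_succ]; exact ih.mul hA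

theorem finite_co0 : Finite Co0 := CoFive.Class.finite_co0

theorem Mon.inv {A : Co0} (hA : Mon A) : Mon A⁻¹ := by
  have := finite_co0
  have h : A⁻¹ = A ^ (orderOf A - 1) := by
    have h1 : 0 < orderOf A := orderOf_pos A
    rw [inv_eq_iff_mul_eq_one, ← pow_succ', Nat.sub_add_cancel h1, pow_orderOf_eq_one]
  rw [h]
  exact hA.pow _

/-- The trace of a signed permutation of order 5 is not negative. -/
theorem Mon.tr8_nonneg {A : Co0} (hA : Mon A) (h5 : A ^ 5 = 1) : 0 ≤ Co2Type.Mono.tr8 A := by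
  obtain ⟨σ, s, hs, h⟩ := hA
  unfold Co2Type.Mono.tr8
  refine Finset.sum_nonneg fun i _ => ?_
  rw [h]
  by_cases hi : σ i = i
  · have h1 : ∀ v : leechLattice, ((A • v : leechLattice) : GolayPt → ℤ) i = s i * (v : GolayPt → ℤ) i := fun v => by
      rw [h, hi]
    have h2 : s i ^ 5 * 8 = 8 := by
      have e8v : ((SporadicStructure.Co0Base.e8 i : leechLattice) : GolayPt → ℤ) i = 8 := by
        have : ((SporadicStructure.Co0Base.e8 i : leechLattice) : GolayPt → ℤ) = Pi.single i 8 := rfl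
        rw [this, Pi.single_eq_same]
      have h3 : ((A ^ 5 • SporadicStructure.Co0Base.e8 i : leechLattice) : GolayPt → ℤ) i = s i ^ 5 * 8 := by
        rw [show A ^ 5 = A * (A * (A * (A * A))) by simp only [pow_succ, pow_zero, one_mul, mul_assoc], mul_smul, h1, mul_smul, h1, mul_smul, h1, mul_smul, h1, h1,
          e8v]
        ring
      rw [← h3, h5, one_smul, e8v]
    rcases hs i with h3 | h3
    · rw [h3, hi, one_mul]
      have : ((SporadicStructure.Co0Base.e8 i : leechLattice) : GolayPt → ℤ) = Pi.single i 8 := rfl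
      rw [this, Pi.single_eq_same]
      norm_num
    · rw [h3] at h2
      norm_num at h2
  · have : ((SporadicStructure.Co0Base.e8 i : leechLattice) : GolayPt → ℤ) = Pi.single i 8 := rfl
    rw [this, Pi.single_eq_of_ne hi, mul_zero]

/-- A signed permutation of order 5 has fixed rank 8. -/
theorem Mon.fr {A : Co0} (hA : Mon A) (ho : orderOf A = 5) : fr (QuotientGroup.mk A : Co1) = 2 ^ 8 := by
  have h5 : A ^ 5 = 1 := by rw [← ho, pow_orderOf_eq_one]
  have h0 := hA.tr8_nonneg h5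
  rcases CoFive.Class.main ho with h | h | h
  · rw [CoFive.Ranks.fr_of_isConj (CoFive.Ranks.isConj_mk h), CoFive.Ranks.fr_r8]
  · rw [CoFive.Dims.tr8_isConj h, CoFive.Dims.tr8_r4] at h0
    norm_num at h0
  · rw [CoFive.Dims.tr8_isConj h, CoFive.Dims.tr8_r0] at h0
    norm_num at h0

theorem mon_sign {A : Co0} {m : ℕ} (h : FrameStab.IsSign A m) : Mon A := by
  refine ⟨fun p => p, fun p => if m.testBit (SporadicA.M24Gens.pidx p) then -1 else 1, fun p => ?_, fun v p => ?_⟩
  · by_cases h1 : m.testBit (SporadicA.M24Gens.pidx p) = true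
    · right; exact if_pos h1
    · left; exact if_neg h1
  · rw [h]
    by_cases h1 : m.testBit (SporadicA.M24Gens.pidx p) = true <;> simp [h1]

theorem mon_perm {A : Co0} {σ : Equiv.Perm GolayPt} (h : FrameStab.IsPerm A σ) : Mon A :=
  ⟨fun p => σ.symm p, fun _ => 1, fun _ => Or.inl rfl, fun v p => by rw [h, one_mul]⟩

theorem mon_A {n : ℕ} (hn : n < 39) : Mon (CoGens.A n) := by
  by_cases h1 : n < 24
  · rw [CoGens.A_lt h1]; exact Mon.one
  · by_cases h2 : n < 36
    · have h3 := mon_sign (CoGens.isSign_sg (i := n - 24) (by omega))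
      rw [← CoGens.A_sg (by omega)] at h3
      rwa [show 24 + (n - 24) = n by omega] at h3
    · obtain rfl | rfl | rfl : n = 36 ∨ n = 37 ∨ n = 38 := by omega
      · exact mon_perm CoGens.isPerm_pS
      · exact mon_perm CoGens.isPerm_pC
      · exact mon_perm CoGens.isPerm_pI

/-- Every element of `N` induces a signed permutation. -/
theorem exists_mon (k : Space.V ≃ₗ[ℚ] Space.V) (hk : k ∈ Conc.N) : ∃ A, UOnto.Ind k A ∧ Mon A := by
  unfold Conc.N at hk
  induction hk using Subgroup.closure_induction with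
  | mem x hx =>
    obtain ⟨n, hn, rfl⟩ := hx
    exact ⟨_, UOnto.ind_E (by omega), mon_A hn⟩
  | one => exact ⟨1, UOnto.Ind.one, Mon.one⟩
  | mul x y _ _ hx hy =>
    obtain ⟨A, hA, hA'⟩ := hx
    obtain ⟨B, hB, hB'⟩ := hy
    exact ⟨A * B, hA.mul hB, hA'.mul hB'⟩
  | inv x _ hx =>
    obtain ⟨A, hA, hA'⟩ := hx
    exact ⟨A⁻¹, hA.inv, hA'.inv⟩

/-- the central involution -/
noncomputable abbrev zz : Gam := KDone.K.z

/-- **An element of order 5 of `N` has fixed rank 8.** -/
theorem fr_eq {x : centralizer ({zz} : Set Gam)} (hx : orderOf x = 5) (hN : ((x : Gam) : Space.V ≃ₗ[ℚ] Space.V) ∈ Conc.N) :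
    fr (KChart.pi MFive.Row.hc x) = 2 ^ 8 := by
  obtain ⟨A, hA, hm⟩ := exists_mon _ hN
  have hpi : KChart.pi MFive.Row.hc x = QuotientGroup.mk A := LThreeMB.KChart.pi_eq _ hA
  have ho : orderOf (KChart.pi MFive.Row.hc x) = 5 := MFive.orderOf_pi chart Nat.prime_five (by decide) hx
  have h5 : (QuotientGroup.mk A : Co1) ^ 5 = 1 := by rw [← hpi, ← ho, pow_orderOf_eq_one]
  have h5' := h5
  rw [← QuotientGroup.mk_pow, QuotientGroup.eq_one_iff] at h5'
  have h10 : (A ^ 5) ^ 2 = 1 := CoFive.Ranks.sq_of_center h5'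
  have e1 : (QuotientGroup.mk (A ^ 6) : Co1) = QuotientGroup.mk A := by
    rw [QuotientGroup.mk_pow, pow_succ, h5, one_mul]
  have : Fact (Nat.Prime 5) := ⟨Nat.prime_five⟩
  have o6 : orderOf (A ^ 6) = 5 := by
    refine orderOf_eq_prime ?_ fun h6 => ?_
    · calc (A ^ 6) ^ 5 = ((A ^ 5) ^ 2) ^ 3 := by rw [← pow_mul, ← pow_mul, ← pow_mul]
        _ = 1 := by rw [h10, one_pow]
    · rw [h6] at e1
      rw [hpi, ← e1] at ho
      rw [show (QuotientGroup.mk (1 : Co0) : Co1) = 1 from rfl, orderOf_one] at ho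
      norm_num at ho
  rw [hpi, ← e1]
  exact (hm.pow 6).fr o6

/-- **The local structure of the elements of order 5 of `N`.** -/
theorem exists_dp {x : centralizer ({zz} : Set Gam)} (hx : orderOf x = 5)
    (hN : ((x : Gam) : Space.V ≃ₗ[ℚ] Space.V) ∈ Conc.N) : ∃ T : Subgroup Gam, DP Spor.HN 5 (x : Gam) T := by
  have := hG
  obtain ⟨e⟩ := MFiveHN.Closed.hnEight chart x hx (fr_eq hx hN)
  have hv' : orderOf (x : Gam) = 5 := by rw [Subgroup.orderOf_coe, hx]
  have hs : IsSimpleGroup Spor.HN := Cfsg.Agent.S1701.result.1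
  exact DP.of_split (Cfsg.Agent.H53.OddLift.commutator_eq_top_of_card Cfsg.Agent.S2056.card_HN (by norm_num))
    Nat.prime_five (H66.M23.Split.noStem_of_mult Cfsg.Agent.S2056.result (by norm_num)) hv' e

/-- **Two elements of order 5 of `N` are conjugate.** -/
theorem exists_conj {x y : centralizer ({zz} : Set Gam)} (hx : orderOf x = 5) (hy : orderOf y = 5)
    (hxN : ((x : Gam) : Space.V ≃ₗ[ℚ] Space.V) ∈ Conc.N) (hyN : ((y : Gam) : Space.V ≃ₗ[ℚ] Space.V) ∈ Conc.N) :
    ∃ c : centralizer ({zz} : Set Gam), c * x * c⁻¹ = y := by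
  obtain ⟨s, hs⟩ := isConj_iff.1 (CoFive.Ranks.isConj_of_fr (MFive.orderOf_pi chart Nat.prime_five (by decide) hx)
    (MFive.orderOf_pi chart Nat.prime_five (by decide) hy) ((fr_eq hx hxN).trans (fr_eq hy hyN).symm))
  exact MFive.exists_conj_of_conj chart Nat.prime_five (by decide) (by rw [← hx, pow_orderOf_eq_one])
    (by rw [← hy, pow_orderOf_eq_one]) hs

end Cfsg.Agent.H136.M23.BMon
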