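import Cfsg.Agent.H136.M23.BTr
import Cfsg.Agent.MonsterX.InstanceFinal

/-!
# Orders of the words (helper136): `W w ^ n = 1`

The vector `uB` of `MonsterX.BaseVec` is moved in steps of `K` applications of the word.
-/

set_option autoImplicit false
set_option maxRecDepth 100000
set_option Elab.async false

namespace Cfsg.Agent.H136.M23.BOrd

open Cfsg.Agent.Monster.VecEngine Cfsg.Agent.Monster.VecSpace Cfsg.Agent.MonsterX.Space Cfsg.Agent.MonsterX.Conc
open Cfsg.Agent.MonsterX.ConcGrp Cfsg.Agent.H136.M23.BTr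
open Cfsg.Agent.MonsterX.BaseVec (bits uB)

theorem stp {w : List ℕ} {x y : Pl} (h : check (w.map MonsterX.ProgTable.prog) x (([] : List ℕ).map MonsterX.ProgTable.prog) y = true) :
    W w (vecV x) = vecV y := by
  have h1 := W_eq_of_check h
  rw [W_nil] at h1
  exact h1

theorem eq_one {w : List ℕ} {n : ℕ} (hw : w.all inN = true) (h : (W w ^ n) (vecV uB) = vecV uB) : W w ^ n = 1 :=
  MonsterX.BaseVec.eq_one_C MonsterX.InstanceFinal.pack.hG MonsterX.InstanceFinal.pack.hR MonsterX.InstanceFinal.pack.hL
    MonsterX.InstanceFinal.pack.lines (pow_mem (N_le_C (W_mem_N hw)) n) h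

theorem step {w : List ℕ} {K n : ℕ} {x y : MonsterX.Space.V} (h0 : (W w ^ n) (vecV uB) = x) (h : W (pw K w) x = y) :
    (W w ^ (K + n)) (vecV uB) = y := by
  rw [pow_add, LinearEquiv.mul_apply, h0, ← W_pw, h]

noncomputable def u_s0 : Pl := .cons (bits [0, 192, 832, 2880, 8640, 26048, 62466, 62468, 62470, 62471, 62476, 62480, 196608]) (.cons (bits [64, 192, 1600, 2880, 14784, 26048, 62467, 62468, 62469, 62471, 62478, 62480]) (.cons (bits [0, 64, 192, 5056, 8640, 14784, 26048, 62469, 62472, 62476, 62480, 62528]) (.cons (bits [0, 64, 192, 62470, 62471, 62477, 62478, 62528, 65536]) (.cons (bits [384, 832, 1600, 2880, 5056, 8640, 14784, 26048, 65536]) (.sgn (bits []))))))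

theorem u_c0 : W (pw 5 u) (vecV u_s0) = vecV u_s0 := stp (by decide +kernel)

theorem u_init : vecV uB = vecV u_s0 := MonsterX.InstData.vecV_congr (by decide +kernel)

theorem u_pow : W u ^ 5 = 1 := by
  apply eq_one (by decide +kernel)
  have h0 : (W u ^ 0) (vecV uB) = vecV u_s0 := by rw [pow_zero, u_init]; rfl
  have h1 := step h0 u_c0
  rw [← u_init] at h1
  exact h1

noncomputable def wA_s0 : Pl := .cons (bits [0, 192, 832, 2880, 8640, 26048, 62466, 62468, 62470, 62471, 62476, 62480, 196608]) (.cons (bits [64, 192, 1600, 2880, 14784, 26048, 62467, 62468, 62469, 62471, 62478, 62480]) (.cons (bits [0, 64, 192, 5056, 8640, 14784, 26048, 62469, 62472, 62476, 62480, 62528]) (.cons (bits [0, 64, 192, 62470, 62471, 62477, 62478, 62528, 65536]) (.cons (bits [384, 832, 1600, 2880, 5056, 8640, 14784, 26048, 65536]) (.sgn (bits []))))))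

noncomputable def wA_s1 : Pl := .cons (bits [4691, 7432, 16255, 29235, 29658, 31160, 62465, 62466, 62468, 62476, 62477, 62944, 233664]) (.cons (bits [4691, 7432, 16255, 27344, 29147, 29969, 31160, 62468, 62476, 62477, 62976, 63104, 63168, 233664]) (.cons (bits [4691, 7432, 27344, 29235, 29658, 29969, 31160, 31586, 62477, 62528, 62944, 63040, 63168, 233664]) (.cons (bits [4691, 7432, 16255, 27344, 29235, 29658, 62465, 62467, 62476, 62528, 63104, 102592, 233664]) (.cons (bits [13681, 29147, 29969, 31160, 31586, 102592, 233664]) (.sgn (bits [4691, 13681, 16255, 27344, 29147, 29658, 233664]))))))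

noncomputable def wA_s2 : Pl := .cons (bits [171, 1770, 6576, 6656, 7377, 7787, 62466, 62467, 62468, 62471, 62473, 62944, 235456]) (.cons (bits [171, 1770, 6576, 6656, 7377, 8259, 14199, 29295, 62467, 62468, 62483, 62784, 62880, 62944]) (.cons (bits [5214, 6576, 7377, 8259, 29295, 62467, 62471, 62481, 62528, 62784]) (.cons (bits [6576, 6656, 8259, 14199, 29295, 62473, 62483, 62528, 62944, 62976, 104384]) (.cons (bits [171, 1770, 5214, 7377, 7787, 17009, 104384]) (.sgn (bits [171, 6656, 8259, 14199]))))))

noncomputable def wA_s3 : Pl := .cons (bits [19, 243, 851, 2938, 8676, 26089, 62466, 62468, 62471, 62476, 62656, 62976, 219136]) (.cons (bits [19, 107, 1648, 2938, 8676, 14800, 62468, 62471, 62560, 62624, 62912, 62976, 219136]) (.cons (bits [5083, 14800, 62476, 62528, 62624, 62720, 62976, 219136]) (.cons (bits [8676, 26089, 62471, 62528, 62656, 62880, 62912, 88064, 219136]) (.cons (bits [19, 107, 243, 415, 851, 1648, 2938, 5083, 14800, 219136]) (.sgn (bits [19, 107, 243, 8676, 26089, 88064, 219136]))))))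

noncomputable def wA_s4 : Pl := .cons (bits [4724, 7449, 16207, 29184, 29674, 31159, 62466, 62468, 62476, 62496, 62880, 62944, 248000]) (.cons (bits [4724, 27385, 29140, 29184, 30005, 62468, 62476, 62480, 62484, 62486, 62880]) (.cons (bits [4724, 16207, 27385, 29140, 29674, 30005, 31577, 62482, 62486, 62528, 62880, 62944]) (.cons (bits [4724, 27385, 29140, 29674, 31159, 62476, 62484, 62496, 62528, 62560, 116928]) (.cons (bits [7449, 13647, 16207, 29184, 30005, 31577, 116928]) (.sgn (bits [4724, 7449, 13647, 27385, 29184, 29674, 31159]))))))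

noncomputable def wA_s5 : Pl := .cons (bits [181, 1782, 6566, 6672, 7418, 7802, 62466, 62468, 62471, 62560, 62752, 62944, 249792]) (.cons (bits [1782, 8314, 14174, 29254, 62468, 62474, 62477, 62560, 62944, 63072, 249792]) (.cons (bits [181, 5230, 6672, 8314, 62471, 62474, 62528, 62560, 63008, 249792]) (.cons (bits [181, 7418, 8314, 14174, 62480, 62528, 62752, 62944, 63072, 118720, 249792]) (.cons (bits [1782, 5230, 6566, 6672, 7802, 17007, 29254, 118720, 249792]) (.sgn (bits [6566, 7418, 8314, 14174, 29254, 249792]))))))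

noncomputable def wA_s6 : Pl := .cons (bits [0, 192, 832, 2880, 8640, 26048, 62466, 62468, 62470, 62471, 62476, 62480, 196608]) (.cons (bits [64, 192, 1600, 2880, 14784, 26048, 62467, 62468, 62469, 62471, 62478, 62480, 196608]) (.cons (bits [0, 64, 192, 5056, 8640, 14784, 26048, 62469, 62472, 62476, 62480, 62528, 196608]) (.cons (bits [0, 64, 192, 62470, 62471, 62477, 62478, 62528, 65536, 196608]) (.cons (bits [384, 832, 1600, 2880, 5056, 8640, 14784, 26048, 196608]) (.sgn (bits [65536, 196608]))))))

noncomputable def wA_s7 : Pl := .cons (bits [4691, 7432, 16255, 29235, 29658, 31160, 62465, 62466, 62468, 62476, 62477, 62944, 233664]) (.cons (bits [4691, 7432, 16255, 27344, 29147, 29969, 31160, 62468, 62476, 62477, 62976, 63104, 63168]) (.cons (bits [4691, 7432, 27344, 29235, 29658, 29969, 31160, 31586, 62477, 62528, 62944, 63040, 63168]) (.cons (bits [4691, 7432, 16255, 27344, 29235, 29658, 62465, 62467, 62476, 62528, 63104, 102592]) (.cons (bits [13681, 29147, 29969, 31160, 31586]) (.sgn (bits [4691, 13681, 16255,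 27344, 29147, 29658, 102592]))))))

noncomputable def wA_s8 : Pl := .cons (bits [171, 1770, 6576, 6656, 7377, 7787, 62466, 62467, 62468, 62471, 62473, 62944, 235456]) (.cons (bits [171, 1770, 6576, 6656, 7377, 8259, 14199, 29295, 62467, 62468, 62483, 62784, 62880, 62944, 235456]) (.cons (bits [5214, 6576, 7377, 8259, 29295, 62467, 62471, 62481, 62528, 62784, 235456]) (.cons (bits [6576, 6656, 8259, 14199, 29295, 62473, 62483, 62528, 62944, 62976, 104384, 235456]) (.cons (bits [171, 1770, 5214, 7377, 7787, 17009, 235456]) (.sgn (bits [171, 6656, 8259, 14199, 104384, 235456]))))))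

noncomputable def wA_s9 : Pl := .cons (bits [19, 243, 851, 2938, 8676, 26089, 62466, 62468, 62471, 62476, 62656, 62976, 219136]) (.cons (bits [19, 107, 1648, 2938, 8676, 14800, 62468, 62471, 62560, 62624, 62912, 62976]) (.cons (bits [5083, 14800, 62476, 62528, 62624, 62720, 62976]) (.cons (bits [8676, 26089, 62471, 62528, 62656, 62880, 62912, 88064]) (.cons (bits [19, 107, 243, 415, 851, 1648, 2938, 5083, 14800, 88064]) (.sgn (bits [19, 107, 243, 8676, 26089]))))))

noncomputable def wA_s10 : Pl := .cons (bits [4724, 7449, 16207, 29184, 29674, 31159, 62466, 62468, 62476, 62496, 62880, 62944, 248000]) (.cons (bits [4724, 27385, 29140, 29184, 30005, 62468, 62476, 62480, 62484, 62486, 62880, 248000]) (.cons (bits [4724, 16207, 27385, 29140, 29674, 30005, 31577, 62482, 62486, 62528, 62880, 62944, 248000]) (.cons (bits [4724, 27385, 29140, 29674, 31159, 62476, 62484, 62496, 62528, 62560, 116928, 248000]) (.cons (bits [7449, 13647, 16207, 29184, 30005, 31577, 248000]) (.sgn (bits [4724, 7449, 13647, 27385, 29184, 29674,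 31159, 116928, 248000]))))))

noncomputable def wA_s11 : Pl := .cons (bits [181, 1782, 6566, 6672, 7418, 7802, 62466, 62468, 62471, 62560, 62752, 62944, 249792]) (.cons (bits [1782, 8314, 14174, 29254, 62468, 62474, 62477, 62560, 62944, 63072]) (.cons (bits [181, 5230, 6672, 8314, 62471, 62474, 62528, 62560, 63008]) (.cons (bits [181, 7418, 8314, 14174, 62480, 62528, 62752, 62944, 63072, 118720]) (.cons (bits [1782, 5230, 6566, 6672, 7802, 17007, 29254]) (.sgn (bits [6566, 7418, 8314, 14174, 29254, 118720]))))))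

theorem wA_c0 : W (pw 5 wA) (vecV wA_s0) = vecV wA_s1 := stp (by decide +kernel)

theorem wA_c1 : W (pw 5 wA) (vecV wA_s1) = vecV wA_s2 := stp (by decide +kernel)

theorem wA_c2 : W (pw 5 wA) (vecV wA_s2) = vecV wA_s3 := stp (by decide +kernel)

theorem wA_c3 : W (pw 5 wA) (vecV wA_s3) = vecV wA_s4 := stp (by decide +kernel)

theorem wA_c4 : W (pw 5 wA) (vecV wA_s4) = vecV wA_s5 := stp (by decide +kernel)

theorem wA_c5 : W (pw 5 wA) (vecV wA_s5) = vecV wA_s6 := stp (by decide +kernel)

theorem wA_c6 : W (pw 5 wA) (vecV wA_s6) = vecV wA_s7 := stp (by decide +kernel)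

theorem wA_c7 : W (pw 5 wA) (vecV wA_s7) = vecV wA_s8 := stp (by decide +kernel)

theorem wA_c8 : W (pw 5 wA) (vecV wA_s8) = vecV wA_s9 := stp (by decide +kernel)

theorem wA_c9 : W (pw 5 wA) (vecV wA_s9) = vecV wA_s10 := stp (by decide +kernel)

theorem wA_c10 : W (pw 5 wA) (vecV wA_s10) = vecV wA_s11 := stp (by decide +kernel)

theorem wA_c11 : W (pw 5 wA) (vecV wA_s11) = vecV wA_s0 := stp (by decide +kernel)

theorem wA_init : vecV uB = vecV wA_s0 := MonsterX.InstData.vecV_congr (by decide +kernel)

theorem wA_pow : W wA ^ 60 = 1 := by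
  apply eq_one (by decide +kernel)
  have h0 : (W wA ^ 0) (vecV uB) = vecV wA_s0 := by rw [pow_zero, wA_init]; rfl
  have h1 := step h0 wA_c0
  have h2 := step h1 wA_c1
  have h3 := step h2 wA_c2
  have h4 := step h3 wA_c3
  have h5 := step h4 wA_c4
  have h6 := step h5 wA_c5
  have h7 := step h6 wA_c6
  have h8 := step h7 wA_c7
  have h9 := step h8 wA_c8
  have h10 := step h9 wA_c9
  have h11 := step h10 wA_c10
  have h12 := step h11 wA_c11
  rw [← wA_init] at h12
  exact h12

noncomputable def wB_s0 : Pl := .cons (bits [0, 192, 832, 2880, 8640, 26048, 62466, 62468, 62470, 62471, 62476, 62480, 196608]) (.cons (bits [64, 192, 1600, 2880, 14784, 26048, 62467, 62468, 62469, 62471, 62478, 62480]) (.cons (bits [0, 64, 192, 5056, 8640, 14784, 26048, 62469, 62472, 62476, 62480, 62528]) (.cons (bits [0, 64, 192, 62470, 62471, 62477, 62478, 62528, 65536]) (.cons (bits [384, 832, 1600, 2880, 5056, 8640, 14784, 26048, 65536]) (.sgn (bits []))))))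

noncomputable def wB_s1 : Pl := .cons (bits [6503, 13449, 26131, 29363, 34916, 45086, 62498, 62532, 62534, 62540, 62550, 62882, 232354]) (.cons (bits [10009, 10355, 26131, 34916, 35326, 62532, 62540, 62914, 62946, 63042, 232354]) (.cons (bits [6503, 10355, 13449, 26131, 32638, 62534, 62540, 62550, 62850, 62914, 63042, 63074, 232354]) (.cons (bits [13449, 26131, 32638, 45086, 62498, 62532, 62540, 62548, 62550, 62882, 62914, 62946, 82690, 232354]) (.cons (bits [6503, 10009, 10355, 29363, 30008, 34916, 35326, 62498, 62532, 62534, 62540, 62548, 62550, 62850, 62914, 82690, 232354]) (.sgn (bits [13449, 26131, 29363, 30008, 32638, 34916, 35326, 45086, 62498, 62532, 62534, 62540, 62548, 62550, 62850, 62914, 232354]))))))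

noncomputable def wB_s2 : Pl := .cons (bits [15130, 15513, 26198, 26731, 38034, 39032, 62604, 62848, 62857, 62870, 62892, 63116, 254572]) (.cons (bits [5807, 21098, 26398, 26731, 38034, 39032, 62604, 62732, 62848, 62857, 62863, 62865, 62870, 62892, 254572]) (.cons (bits [26198, 38034, 38211, 62604, 62732, 62852, 62857, 62865, 62871, 254572]) (.cons (bits [5807, 15130, 26198, 26731, 38034, 62604, 62636, 62870, 62892, 63116, 121292, 254572]) (.cons (bits [15513, 21098, 26398, 37674, 38211, 39032, 62604, 62852, 62865, 62870, 254572]) (.sgn (bits [5807, 15130, 21098, 26198, 26731, 37674, 39032, 62604, 62852, 62865, 62870, 121292, 254572]))))))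

noncomputable def wB_s3 : Pl := .cons (bits [8150, 16629, 17023, 28656, 38504, 44175, 62592, 62594, 62614, 62628, 62980, 63108, 261540]) (.cons (bits [3372, 8150, 17023, 27725, 38504, 38759, 44175, 62613, 62614, 62628, 63012, 63076, 63108]) (.cons (bits [8150, 16629, 17023, 27725, 38953, 62592, 62594, 62602, 62613, 62614, 62628, 63012, 63172]) (.cons (bits [3372, 16629, 17023, 27725, 44175, 62594, 62602, 62614, 62980, 63012, 63044, 63076, 63108, 94436]) (.cons (bits [8150, 16550, 28656, 38504, 38759, 38953, 62594, 62602, 62613, 62614, 62628, 62980, 63012, 63044, 63076, 63172]) (.sgn (bits [3372, 16629, 38504, 44175, 62594, 62602, 62613, 62614, 62628, 62980, 63012, 63044, 63076, 63172, 94436]))))))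

noncomputable def wB_s4 : Pl := .cons (bits [5924, 8909, 15713, 23517, 35068, 41208, 63062, 63168, 63169, 63170, 63173, 63180, 252950]) (.cons (bits [8909, 23517, 33379, 35068, 42930, 45009, 63170, 63175, 63189, 63191, 252950]) (.cons (bits [15713, 23928, 35068, 45009, 62486, 62582, 63173, 63180, 63189, 252950]) (.cons (bits [33379, 45009, 62486, 62582, 62742, 63062, 63169, 63170, 63175, 63180, 63189, 63191, 122454, 252950]) (.cons (bits [5924, 8909, 15713, 23517, 23928, 29678, 35068, 41208, 42930, 62582, 62742, 63169, 63170, 63173, 63180, 63189, 63191, 252950]) (.sgn (bits [5924, 23517, 29678, 33379, 62582, 62742, 63169, 63170, 63173, 63180, 63189, 63191, 122454, 252950]))))))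

noncomputable def wB_s5 : Pl := .cons (bits [5566, 29853, 30105, 31356, 37852, 38180, 62466, 62468, 62472, 62476, 62752, 63040, 260032]) (.cons (bits [15360, 21421, 29853, 30105, 31356, 37852, 40249, 62468, 62470, 62472, 62688, 62784]) (.cons (bits [5194, 5566, 15360, 21421, 30105, 37852, 40249, 62470, 62472, 62476, 62478, 62528, 62688, 63040]) (.cons (bits [5194, 21421, 30105, 37852, 38180, 40249, 62483, 62528, 62688, 62752, 62784, 98368]) (.cons (bits [5566, 15360, 18423, 29853, 31356, 62470, 62472, 62483, 62688, 62752, 62784, 63040, 98368]) (.sgn (bits [5194, 18423, 29853, 37852, 38180, 40249, 62470, 62472, 62483, 62688, 62752, 62784, 63040]))))))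

noncomputable def wB_s6 : Pl := .cons (bits [12336, 15610, 16271, 17810, 19231, 19313, 62532, 62536, 62540, 62550, 62978, 63074, 216386]) (.cons (bits [60, 6415, 18484, 19231, 62532, 62536, 62540, 62562, 62658, 62882, 63074]) (.cons (bits [60, 6761, 12336, 15610, 18484, 19231, 19313, 62540, 62550, 62562, 62850, 62882, 62946, 63074]) (.cons (bits [15610, 16271, 18484, 19231, 19313, 62532, 62536, 62540, 62550, 62978, 63202, 96770]) (.cons (bits [60, 6415, 6761, 12336, 17810, 27382, 62532, 62540, 62550, 62850, 62882, 62978, 63074]) (.sgn (bits [6415, 15610, 16271, 17810, 18484, 19231, 62532, 62540, 62550, 62850, 62882, 62978, 63074, 96770]))))))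

noncomputable def wB_s7 : Pl := .cons (bits [2352, 5337, 11961, 27947, 33296, 34985, 62604, 62848, 62849, 62870, 62871, 63084, 221740]) (.cons (bits [2352, 5337, 11961, 12579, 13193, 27947, 33296, 34923, 62604, 62848, 62861, 62862, 62870, 62871, 63116]) (.cons (bits [5337, 13193, 27947, 33172, 62604, 62852, 62861, 62862, 62865, 62871, 63084, 63116]) (.cons (bits [2352, 5337, 13193, 27947, 33172, 34923, 34985, 62604, 62849, 62858, 62861, 62865, 62870, 110860]) (.cons (bits [11961, 12579, 33296, 40581, 62604, 62849, 62852, 62858, 62861, 62865, 62870, 62871, 63084, 63116, 110860]) (.sgn (bits [2352, 5337, 11961, 12579, 13193, 33172, 34923, 34985, 40581, 62604, 62849, 62852, 62858, 62861, 62865, 62870, 62871, 63084, 63116]))))))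

noncomputable def wB_s8 : Pl := .cons (bits [18616, 19864, 29176, 30859, 31728, 41033, 62592, 62594, 62601, 62602, 62614, 62615, 246948]) (.cons (bits [8272, 10081, 19864, 31728, 39004, 41033, 62601, 62612, 62614, 62628, 62948]) (.cons (bits [17896, 18616, 19864, 29176, 30859, 31728, 39004, 41033, 62592, 62594, 62601, 62612, 62613, 62614, 62615, 63172]) (.cons (bits [18616, 30859, 31728, 41033, 62594, 62595, 62602, 62612, 62613, 62614, 62628, 62948, 86180]) (.cons (bits [8272, 10081, 17896, 19864, 29176, 37339, 39004, 62594, 62595, 62612, 62613, 62614, 62615, 62948, 63172, 86180]) (.sgn (bits [10081, 18616, 31728, 62594, 62595, 62612, 62613, 62614, 62615, 62948, 63172]))))))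

noncomputable def wB_s9 : Pl := .cons (bits [2731, 14800, 15633, 26250, 39491, 42718, 62582, 62806, 62998, 63168, 63170, 63180, 242902]) (.cons (bits [2419, 15633, 26250, 27504, 38506, 42718, 62646, 62806, 63030, 63062, 63170]) (.cons (bits [14800, 15633, 26858, 62486, 63030, 63062, 63175, 63180]) (.cons (bits [2731, 14800, 15633, 38506, 42718, 62486, 62582, 62806, 62934, 62998, 63170, 63180, 88086]) (.cons (bits [2419, 26250, 26858, 27504, 39491, 40528, 62934, 62998, 63062, 63170, 63180]) (.sgn (bits [2731, 27504, 38506, 42718, 62934, 62998, 63062, 63170, 63180, 88086]))))))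

noncomputable def wB_s10 : Pl := .cons (bits [6867, 10323, 13343, 14859, 16910, 25189, 62466, 62468, 62476, 62478, 62496, 62560, 251776]) (.cons (bits [16910, 21277, 23497, 33095, 62468, 62472, 62478, 62482, 62496, 63136]) (.cons (bits [10323, 14859, 16910, 21277, 23497, 23704, 25189, 33095, 62470, 62476, 62478, 62496, 62528, 62560]) (.cons (bits [10323, 13343, 16910, 21277, 25189, 33095, 62470, 62472, 62479, 62528, 63136, 100448]) (.cons (bits [6867, 14859, 18697, 23497, 23704, 62470, 62478, 62479, 62560, 63136, 100448]) (.sgn (bits [6867, 13343, 16910, 25189, 33095, 62470, 62478, 62479, 62560, 63136]))))))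

noncomputable def wB_s11 : Pl := .cons (bits [133, 5169, 5782, 27286, 30063, 31266, 62532, 62537, 62540, 62542, 62550, 62946, 248578]) (.cons (bits [133, 5782, 29876, 30063, 32275, 37721, 62532, 62535, 62537, 62540, 62542, 62722, 62946, 63074, 248578]) (.cons (bits [133, 577, 27286, 37721, 62537, 62540, 62550, 62722, 62850, 62882, 62946, 248578]) (.cons (bits [577, 27286, 29876, 30063, 37721, 62532, 62535, 62540, 62542, 62550, 62722, 62882, 63010, 63074, 87138, 248578]) (.cons (bits [133, 5169, 5782, 6674, 31266, 32275, 62532, 62535, 62540, 62550, 62722, 62850, 62882, 62946, 63010, 87138, 248578]) (.sgn (bits [577, 5782, 6674, 27286, 29876, 30063, 31266, 32275, 37721, 62532, 62535, 62540, 62550, 62722, 62850, 62882, 62946, 63010, 248578]))))))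

noncomputable def wB_s12 : Pl := .cons (bits [1905, 3369, 5745, 16807, 19142, 23834, 62604, 62848, 62864, 62865, 62870, 62956, 223756]) (.cons (bits [1905, 5745, 15474, 18768, 19142, 19281, 23834, 62604, 62668, 62848, 62867, 62870, 62871]) (.cons (bits [1905, 3369, 5745, 15474, 18768, 19281, 30771, 62604, 62852, 62956, 63116]) (.cons (bits [3369, 5745, 15474, 18768, 23834, 30771, 62604, 62668, 62864, 62865, 62870, 62871, 63116, 63148, 75788]) (.cons (bits [1905, 6387, 16807, 19142, 19281, 62604, 62668, 62852, 62864, 62870, 62956, 63116, 63148]) (.sgn (bits [5745, 6387, 15474, 16807, 23834, 30771, 62604, 62668, 62852, 62864, 62870, 62956, 63116, 63148, 75788]))))))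

noncomputable def wB_s13 : Pl := .cons (bits [4161, 4656, 29302, 32206, 33359, 33793, 62500, 62592, 62594, 62609, 62613, 62614, 256708]) (.cons (bits [11960, 13964, 29302, 32206, 32566, 33359, 62602, 62609, 62614, 62884, 63204]) (.cons (bits [13964, 22367, 62592, 62594, 62602, 62614, 62628, 62884, 63172]) (.cons (bits [11960, 13964, 22367, 29302, 33793, 62500, 62594, 62599, 62609, 62613, 62614, 100132]) (.cons (bits [4161, 4656, 27701, 32206, 32566, 33359, 62500, 62594, 62602, 62614, 63172]) (.sgn (bits [4161, 11960, 13964, 22367, 29302, 32566, 33359, 33793, 62500, 62594, 62602, 62614, 63172, 100132]))))))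

noncomputable def wB_s14 : Pl := .cons (bits [4871, 6247, 15365, 15989, 19339, 19410, 63158, 63168, 63170, 63175, 63177, 63180, 208342]) (.cons (bits [6297, 19410, 24200, 30891, 62582, 63158, 63170, 63175, 63177, 63178, 63188]) (.cons (bits [2547, 15365, 19339, 62486, 62582, 63062, 63175, 63177, 63178, 63180, 63188]) (.cons (bits [2547, 15365, 15989, 19339, 19410, 30891, 62486, 62678, 63062, 63158, 63170, 63178, 63180, 71862]) (.cons (bits [4871, 6247, 6297, 16227, 24200, 62582, 63062, 63170, 63175, 63178, 63180, 71862]) (.sgn (bits [2547, 6247, 15989, 16227, 19339, 19410, 24200, 30891, 62582, 63062, 63170, 63175, 63178, 63180]))))))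

theorem wB_c0 : W (pw 4 wB) (vecV wB_s0) = vecV wB_s1 := stp (by decide +kernel)

theorem wB_c1 : W (pw 4 wB) (vecV wB_s1) = vecV wB_s2 := stp (by decide +kernel)

theorem wB_c2 : W (pw 4 wB) (vecV wB_s2) = vecV wB_s3 := stp (by decide +kernel)

theorem wB_c3 : W (pw 4 wB) (vecV wB_s3) = vecV wB_s4 := stp (by decide +kernel)

theorem wB_c4 : W (pw 4 wB) (vecV wB_s4) = vecV wB_s5 := stp (by decide +kernel)

theorem wB_c5 : W (pw 4 wB) (vecV wB_s5) = vecV wB_s6 := stp (by decide +kernel)

theorem wB_c6 : W (pw 4 wB) (vecV wB_s6) = vecV wB_s7 := stp (by decide +kernel)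

theorem wB_c7 : W (pw 4 wB) (vecV wB_s7) = vecV wB_s8 := stp (by decide +kernel)

theorem wB_c8 : W (pw 4 wB) (vecV wB_s8) = vecV wB_s9 := stp (by decide +kernel)

theorem wB_c9 : W (pw 4 wB) (vecV wB_s9) = vecV wB_s10 := stp (by decide +kernel)

theorem wB_c10 : W (pw 4 wB) (vecV wB_s10) = vecV wB_s11 := stp (by decide +kernel)

theorem wB_c11 : W (pw 4 wB) (vecV wB_s11) = vecV wB_s12 := stp (by decide +kernel)

theorem wB_c12 : W (pw 4 wB) (vecV wB_s12) = vecV wB_s13 := stp (by decide +kernel)

theorem wB_c13 : W (pw 4 wB) (vecV wB_s13) = vecV wB_s14 := stp (by decide +kernel)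

theorem wB_c14 : W (pw 4 wB) (vecV wB_s14) = vecV wB_s0 := stp (by decide +kernel)

theorem wB_init : vecV uB = vecV wB_s0 := MonsterX.InstData.vecV_congr (by decide +kernel)

theorem wB_pow : W wB ^ 60 = 1 := by
  apply eq_one (by decide +kernel)
  have h0 : (W wB ^ 0) (vecV uB) = vecV wB_s0 := by rw [pow_zero, wB_init]; rfl
  have h1 := step h0 wB_c0
  have h2 := step h1 wB_c1
  have h3 := step h2 wB_c2
  have h4 := step h3 wB_c3
  have h5 := step h4 wB_c4
  have h6 := step h5 wB_c5
  have h7 := step h6 wB_c6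
  have h8 := step h7 wB_c7
  have h9 := step h8 wB_c8
  have h10 := step h9 wB_c9
  have h11 := step h10 wB_c10
  have h12 := step h11 wB_c11
  have h13 := step h12 wB_c12
  have h14 := step h13 wB_c13
  have h15 := step h14 wB_c14
  rw [← wB_init] at h15
  exact h15

noncomputable def wC_s0 : Pl := .cons (bits [0, 192, 832, 2880, 8640, 26048, 62466, 62468, 62470, 62471, 62476, 62480, 196608]) (.cons (bits [64, 192, 1600, 2880, 14784, 26048, 62467, 62468, 62469, 62471, 62478, 62480]) (.cons (bits [0, 64, 192, 5056, 8640, 14784, 26048, 62469, 62472, 62476, 62480, 62528]) (.cons (bits [0, 64, 192, 62470, 62471, 62477, 62478, 62528, 65536]) (.cons (bits [384, 832, 1600, 2880, 5056, 8640, 14784, 26048, 65536]) (.sgn (bits []))))))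

noncomputable def wC_s1 : Pl := .cons (bits [11295, 12870, 31457, 32924, 36028, 44590, 62826, 62835, 62838, 62923, 63051, 63211, 158731]) (.cons (bits [12870, 31328, 31457, 32924, 34406, 36028, 42647, 62818, 62826, 62838, 62923, 63019, 63115]) (.cons (bits [11523, 12870, 31328, 32924, 34406, 44590, 62818, 62829, 62830, 62835, 62838, 62923, 63115, 63211]) (.cons (bits [11523, 31328, 32924, 36028, 44590, 62824, 62830, 62923, 63051, 80459]) (.cons (bits [7819, 11295, 12870, 31457, 34406, 42647, 62818, 62824, 62923, 63211, 80459]) (.sgn (bits [11523, 36028, 62818, 62824, 62923, 63211]))))))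

noncomputable def wC_s2 : Pl := .cons (bits [53, 213, 869, 2893, 8660, 26111, 62466, 62468, 62476, 62656, 62688, 62976, 203936]) (.cons (bits [86, 213, 1650, 2893, 14819, 62466, 62476, 62478, 62560, 62624, 62656, 62688, 62976]) (.cons (bits [53, 86, 213, 1650, 5101, 8660, 62466, 62468, 62478, 62528, 62560, 62656, 62720, 62976]) (.cons (bits [53, 86, 213, 1650, 5101, 14819, 26111, 62466, 62468, 62476, 62560, 62624, 62688, 62720, 62880, 98272]) (.cons (bits [440, 869, 2893, 8660, 62466, 62468, 62476, 62478, 62528, 62560, 62624, 62656, 62720, 98272]) (.sgn (bits [1650, 5101, 14819, 26111, 62466, 62468, 62476, 62478, 62528, 62560, 62624, 62656, 62720]))))))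

noncomputable def wC_s3 : Pl := .cons (bits [11298, 12926, 31465, 32937, 35975, 44560, 62826, 62834, 62835, 62839, 62923, 63179, 134987]) (.cons (bits [11298, 12926, 31315, 34379, 42630, 44560, 62818, 62833, 62835, 62836, 62839]) (.cons (bits [11298, 11553, 12926, 31465, 34379, 35975, 42630, 62826, 62830, 62836, 62891]) (.cons (bits [11298, 11553, 31465, 42630, 62731, 62818, 62826, 62834, 62835, 62839, 63179, 83371]) (.cons (bits [7827, 12926, 31315, 32937, 34379, 35975, 44560, 62826, 62830, 62835, 63179]) (.sgn (bits [7827, 11298, 11553, 31315, 31465, 32937, 42630, 44560, 62826, 62830, 62835, 63179, 83371]))))))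

noncomputable def wC_s4 : Pl := .cons (bits [0, 192, 832, 2880, 8640, 26048, 62466, 62468, 62470, 62471, 62476, 62480, 196608]) (.cons (bits [0, 64, 192, 1600, 2880, 14784, 26048, 62467, 62468, 62469, 62471, 62478, 62480]) (.cons (bits [64, 192, 5056, 8640, 14784, 26048, 62469, 62472, 62476, 62480, 62528]) (.cons (bits [64, 192, 62470, 62471, 62477, 62478, 62528, 65536]) (.cons (bits [0, 384, 832, 1600, 2880, 5056, 8640, 14784, 26048, 65536]) (.sgn (bits [0]))))))

noncomputable def wC_s5 : Pl := .cons (bits [11295, 12870, 31457, 32924, 36028, 44590, 62826, 62835, 62838, 62923, 63051, 63211, 158731]) (.cons (bits [12870, 31328, 31457, 32924, 34406, 36028, 42647, 44590, 62818, 62826, 62838, 62923, 63019, 63115]) (.cons (bits [11523, 12870, 31328, 32924, 34406, 62818, 62829, 62830, 62835, 62838, 62923, 63115, 63211]) (.cons (bits [11523, 31328, 32924, 36028, 62824, 62830, 62923, 63051, 80459]) (.cons (bits [7819, 11295, 12870, 31457, 34406, 42647, 44590, 62818, 62824, 62923, 63211, 80459]) (.sgn (bits [11523, 36028,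 44590, 62818, 62824, 62923, 63211]))))))

noncomputable def wC_s6 : Pl := .cons (bits [53, 213, 869, 2893, 8660, 26111, 62466, 62468, 62476, 62656, 62688, 62976, 203936]) (.cons (bits [53, 86, 213, 1650, 2893, 14819, 62466, 62476, 62478, 62560, 62624, 62656, 62688, 62976]) (.cons (bits [86, 213, 1650, 5101, 8660, 62466, 62468, 62478, 62528, 62560, 62656, 62720, 62976]) (.cons (bits [86, 213, 1650, 5101, 14819, 26111, 62466, 62468, 62476, 62560, 62624, 62688, 62720, 62880, 98272]) (.cons (bits [53, 440, 869, 2893, 8660, 62466, 62468, 62476, 62478, 62528, 62560, 62624, 62656, 62720, 98272]) (.sgn (bits [53, 1650, 5101, 14819, 26111, 62466, 62468, 62476, 62478, 62528, 62560, 62624, 62656, 62720]))))))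

noncomputable def wC_s7 : Pl := .cons (bits [11298, 12926, 31465, 32937, 35975, 44560, 62826, 62834, 62835, 62839, 62923, 63179, 134987]) (.cons (bits [11298, 12926, 31315, 34379, 42630, 62818, 62833, 62835, 62836, 62839]) (.cons (bits [11298, 11553, 12926, 31465, 34379, 35975, 42630, 44560, 62826, 62830, 62836, 62891]) (.cons (bits [11298, 11553, 31465, 42630, 44560, 62731, 62818, 62826, 62834, 62835, 62839, 63179, 83371]) (.cons (bits [7827, 12926, 31315, 32937, 34379, 35975, 62826, 62830, 62835, 63179]) (.sgn (bits [7827, 11298, 11553, 31315, 31465, 32937, 42630, 62826, 62830, 62835, 63179, 83371]))))))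

theorem wC_c0 : W (pw 5 wC) (vecV wC_s0) = vecV wC_s1 := stp (by decide +kernel)

theorem wC_c1 : W (pw 5 wC) (vecV wC_s1) = vecV wC_s2 := stp (by decide +kernel)

theorem wC_c2 : W (pw 5 wC) (vecV wC_s2) = vecV wC_s3 := stp (by decide +kernel)

theorem wC_c3 : W (pw 5 wC) (vecV wC_s3) = vecV wC_s4 := stp (by decide +kernel)

theorem wC_c4 : W (pw 5 wC) (vecV wC_s4) = vecV wC_s5 := stp (by decide +kernel)

theorem wC_c5 : W (pw 5 wC) (vecV wC_s5) = vecV wC_s6 := stp (by decide +kernel)

theorem wC_c6 : W (pw 5 wC) (vecV wC_s6) = vecV wC_s7 := stp (by decide +kernel)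

theorem wC_c7 : W (pw 5 wC) (vecV wC_s7) = vecV wC_s0 := stp (by decide +kernel)

theorem wC_init : vecV uB = vecV wC_s0 := MonsterX.InstData.vecV_congr (by decide +kernel)

theorem wC_pow : W wC ^ 40 = 1 := by
  apply eq_one (by decide +kernel)
  have h0 : (W wC ^ 0) (vecV uB) = vecV wC_s0 := by rw [pow_zero, wC_init]; rfl
  have h1 := step h0 wC_c0
  have h2 := step h1 wC_c1
  have h3 := step h2 wC_c2
  have h4 := step h3 wC_c3
  have h5 := step h4 wC_c4
  have h6 := step h5 wC_c5
  have h7 := step h6 wC_c6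
  have h8 := step h7 wC_c7
  rw [← wC_init] at h8
  exact h8

noncomputable def wD_s0 : Pl := .cons (bits [0, 192, 832, 2880, 8640, 26048, 62466, 62468, 62470, 62471, 62476, 62480, 196608]) (.cons (bits [64, 192, 1600, 2880, 14784, 26048, 62467, 62468, 62469, 62471, 62478, 62480]) (.cons (bits [0, 64, 192, 5056, 8640, 14784, 26048, 62469, 62472, 62476, 62480, 62528]) (.cons (bits [0, 64, 192, 62470, 62471, 62477, 62478, 62528, 65536]) (.cons (bits [384, 832, 1600, 2880, 5056, 8640, 14784, 26048, 65536]) (.sgn (bits []))))))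

noncomputable def wD_s1 : Pl := .cons (bits [6431, 8181, 9926, 11355, 13749, 25169, 62484, 62485, 62496, 62592, 62880, 63200, 251552]) (.cons (bits [6362, 6431, 8942, 11355, 25169, 29176, 62467, 62484, 62486, 62496, 62752, 62880, 251552]) (.cons (bits [4208, 6362, 6431, 8942, 13749, 62470, 62486, 62592, 62880, 63136, 251552]) (.cons (bits [6431, 8942, 9926, 13749, 25169, 62484, 62752, 63040, 63136, 63200, 120480, 251552]) (.cons (bits [4208, 6362, 8181, 11355, 13985, 29176, 120480, 251552]) (.sgn (bits [6431, 8181, 9926, 13985, 25169, 251552]))))))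

noncomputable def wD_s2 : Pl := .cons (bits [15743, 21490, 32401, 33907, 37846, 45051, 62465, 62469, 62476, 62482, 62528, 62976, 203328]) (.cons (bits [20979, 21490, 26060, 26867, 32401, 33907, 37846, 62467, 62472, 62482, 62483, 62528, 62976, 203328]) (.cons (bits [15743, 20979, 26867, 32401, 33363, 33907, 62465, 62472, 62482, 62848, 63200, 203328]) (.cons (bits [15743, 20979, 26060, 26867, 32401, 33907, 37846, 45051, 62469, 62471, 62483, 62848, 62976, 72256, 203328]) (.cons (bits [21490, 21650, 33363, 203328]) (.sgn (bits [15743, 21490, 26060, 26867, 32401, 37846, 45051, 72256, 203328]))))))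

noncomputable def wD_s3 : Pl := .cons (bits [9044, 10079, 14838, 16202, 16345, 22130, 62466, 62477, 62486, 62592, 62688, 63136, 208896]) (.cons (bits [9044, 9966, 12384, 22130, 22368, 62467, 62470, 62474, 62477, 62688, 63136]) (.cons (bits [9966, 10079, 16345, 22130, 22368, 37492, 62466, 62468, 62469, 62470, 62688]) (.cons (bits [14838, 16345, 22130, 22368, 37492, 62468, 62474, 62477, 62484, 62486, 77824]) (.cons (bits [9044, 9966, 10079, 12384, 16202, 16649, 77824]) (.sgn (bits [14838, 37492]))))))

noncomputable def wD_s4 : Pl := .cons (bits [6397, 15014, 26325, 31055, 39973, 40120, 62465, 62472, 62485, 62848, 63040, 63104, 229824]) (.cons (bits [15014, 15580, 18677, 31055, 39973, 45034, 62467, 62848, 62944, 63040, 63104, 63200, 229824]) (.cons (bits [5301, 18677, 26325, 31055, 45034, 62485, 62486, 62496, 63104, 63200, 229824]) (.cons (bits [6397, 18677, 26325, 31055, 39973, 62472, 62496, 62944, 62976, 63040, 98752, 229824]) (.cons (bits [5301, 15014, 15580, 26733, 40120, 45034, 98752, 229824]) (.sgn (bits [6397,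 15580, 18677, 26733, 31055, 39973, 40120, 229824]))))))

theorem wD_c0 : W (pw 8 wD) (vecV wD_s0) = vecV wD_s1 := stp (by decide +kernel)

theorem wD_c1 : W (pw 8 wD) (vecV wD_s1) = vecV wD_s2 := stp (by decide +kernel)

theorem wD_c2 : W (pw 8 wD) (vecV wD_s2) = vecV wD_s3 := stp (by decide +kernel)

theorem wD_c3 : W (pw 8 wD) (vecV wD_s3) = vecV wD_s4 := stp (by decide +kernel)

theorem wD_c4 : W (pw 8 wD) (vecV wD_s4) = vecV wD_s0 := stp (by decide +kernel)

theorem wD_init : vecV uB = vecV wD_s0 := MonsterX.InstData.vecV_congr (by decide +kernel)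

theorem wD_pow : W wD ^ 40 = 1 := by
  apply eq_one (by decide +kernel)
  have h0 : (W wD ^ 0) (vecV uB) = vecV wD_s0 := by rw [pow_zero, wD_init]; rfl
  have h1 := step h0 wD_c0
  have h2 := step h1 wD_c1
  have h3 := step h2 wD_c2
  have h4 := step h3 wD_c3
  have h5 := step h4 wD_c4
  rw [← wD_init] at h5
  exact h5

noncomputable def wE_s0 : Pl := .cons (bits [0, 192, 832, 2880, 8640, 26048, 62466, 62468, 62470, 62471, 62476, 62480, 196608]) (.cons (bits [64, 192, 1600, 2880, 14784, 26048, 62467, 62468, 62469, 62471, 62478, 62480]) (.cons (bits [0, 64, 192, 5056, 8640, 14784, 26048, 62469, 62472, 62476, 62480, 62528]) (.cons (bits [0, 64, 192, 62470, 62471, 62477, 62478, 62528, 65536]) (.cons (bits [384, 832, 1600, 2880, 5056, 8640, 14784, 26048, 65536]) (.sgn (bits []))))))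

noncomputable def wE_s1 : Pl := .cons (bits [0, 192, 832, 2880, 8640, 26048, 62466, 62468, 62470, 62471, 62476, 62480, 196608]) (.cons (bits [64, 192, 832, 1600, 2880, 8640, 14784, 26048, 62467, 62468, 62469, 62471, 62478, 62480, 196608]) (.cons (bits [0, 192, 832, 1600, 5056, 14784, 26048, 62469, 62472, 62476, 62480, 62528, 196608]) (.cons (bits [0, 192, 832, 1600, 5056, 8640, 62470, 62471, 62477, 62478, 62528, 65536, 196608]) (.cons (bits [64, 384, 2880, 14784, 26048, 65536, 196608]) (.sgn (bits [64, 384, 832, 1600, 5056, 8640, 196608]))))))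

theorem wE_c0 : W (pw 10 wE) (vecV wE_s0) = vecV wE_s1 := stp (by decide +kernel)

theorem wE_c1 : W (pw 10 wE) (vecV wE_s1) = vecV wE_s0 := stp (by decide +kernel)

theorem wE_init : vecV uB = vecV wE_s0 := MonsterX.InstData.vecV_congr (by decide +kernel)

theorem wE_pow : W wE ^ 20 = 1 := by
  apply eq_one (by decide +kernel)
  have h0 : (W wE ^ 0) (vecV uB) = vecV wE_s0 := by rw [pow_zero, wE_init]; rfl
  have h1 := step h0 wE_c0
  have h2 := step h1 wE_c1
  rw [← wE_init] at h2
  exact h2

/-! ### Powers which are not trivial -/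

theorem pow_ne {w : List ℕ} {n a l : ℕ} (h : W (pw n w) (vecV (MonsterX.BaseVec.oneP a)) = vecV (MonsterX.BaseVec.oneP l))
    (ha : sym (MonsterX.BaseVec.oneP a) = true) (hl : sym (MonsterX.BaseVec.oneP l) = true)
    (hU : MonsterX.ProgBase.U.testBit a = true) (hne : a ≠ l) : W w ^ n ≠ 1 := by
  intro h1
  rw [W_pw, h1] at h
  have h2 : vecV (MonsterX.BaseVec.oneP a) = vecV (MonsterX.BaseVec.oneP l) := h
  have h3 := congrArg (fun x : MonsterX.Space.V => (x : Lane MonsterX.ProgBase.U → ℚ) ⟨a, hU⟩) h2
  have h4 := (MonsterX.BaseVec.one_apply ha ⟨a, hU⟩).symm.trans (h3.trans (MonsterX.BaseVec.one_apply hl ⟨a, hU⟩))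
  rw [if_pos rfl, if_neg hne] at h4
  exact one_ne_zero h4

theorem wA_ne : W wA ^ 12 ≠ 1 :=
  pow_ne (a := 0) (l := 30502) (stp (by decide +kernel)) (by decide +kernel) (by decide +kernel) (by decide +kernel) (by norm_num)

theorem wB_ne : W wB ^ 12 ≠ 1 :=
  pow_ne (a := 1) (l := 38466) (stp (by decide +kernel)) (by decide +kernel) (by decide +kernel) (by decide +kernel) (by norm_num)

theorem wC_ne : W wC ^ 8 ≠ 1 :=
  pow_ne (a := 0) (l := 13698) (stp (by decide +kernel)) (by decide +kernel) (by decide +kernel) (by decide +kernel) (by norm_num)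

theorem wD_ne : W wD ^ 8 ≠ 1 :=
  pow_ne (a := 0) (l := 13749) (stp (by decide +kernel)) (by decide +kernel) (by decide +kernel) (by decide +kernel) (by norm_num)

theorem wE_ne : W wE ^ 4 ≠ 1 :=
  pow_ne (a := 128) (l := 11839) (stp (by decide +kernel)) (by decide +kernel) (by decide +kernel) (by decide +kernel) (by norm_num)

end Cfsg.Agent.H136.M23.BOrd
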