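import Cfsg.Agent.H136.M23.BMon
import Cfsg.Agent.H136.M23.BOrd
import Cfsg.Agent.H875.M23.TraceChar
import Cfsg.Agent.H689.Rat

/-!
# The values of the character of degree `196883` at the elements `v y`, `y` a {2,3}-element (helper136)

(b1) of (M,23), S4929: `v = W [37, 37]` of the class 5A, `C(v) = ⟨v⟩ × T`, `T ≅ HN`.
-/

set_option autoImplicit false
set_option maxRecDepth 100000

namespace Cfsg.Agent.H136.M23.BWords

open Cfsg Cfsg.Agent.H241.Mon Cfsg.Agent.MonsterX.MainBasic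
open Cfsg.Agent.MonsterX Cfsg.Agent.MonsterX.InstData Cfsg.Agent.MonsterU
open Subgroup (centralizer zpowers mem_centralizer_singleton_iff)
open Cfsg.Agent.MonsterX.Conc Cfsg.Agent.MonsterX.ConcGrp
open Cfsg.Agent.H66.M23.Loc Cfsg.Agent.H136.M23.BTr Cfsg.Agent.H136.M23.BMon
open Cfsg.Agent.H875.M23.TraceChar (chi chi_eq chi_irr chi_one chi_rat)
open Cfsg.Agent.Characters.Core

/-- the element of `C(z)` given by a word in `N` -/
noncomputable def gN (w : List ℕ) (h : w.all inN = true) : centralizer ({zz} : Set Gam) :=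
  ⟨⟨W w, C_le_G (N_le_C (W_mem_N h))⟩, mem_centralizer_singleton_iff.2
    (KDone.K.z_comm_K _ (Subgroup.mem_subgroupOf.2 (N_le_C (W_mem_N h))))⟩

theorem gN_mem {w : List ℕ} (h : w.all inN = true) (n : ℕ) :
    (((gN w h ^ n : centralizer ({zz} : Set Gam)) : Gam) : Space.V ≃ₗ[ℚ] Space.V) ∈ Conc.N := by
  rw [Subgroup.coe_pow, Subgroup.coe_pow]
  exact pow_mem (W_mem_N h) n

theorem coe_gN_pow {w : List ℕ} (h : w.all inN = true) (n : ℕ) :
    (((gN w h : Gam) ^ n : Gam) : Space.V ≃ₗ[ℚ] Space.V) = W (pw n w) := by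
  rw [Subgroup.coe_pow, W_pw]
  rfl

theorem chi_gN {w : List ℕ} (h : w.all inN = true) {n : ℕ} {a b : ℕ}
    (ht : LinearMap.trace ℚ Space.V (W (pw n w) : Space.V →ₗ[ℚ] Space.V) = (a : ℚ) - (b : ℕ)) :
    chi ((gN w h : Gam) ^ n) = (((a : ℤ) - b - 1 : ℤ) : ℂ) := by
  rw [chi_eq, coe_gN_pow, ht]
  push_cast
  ring

theorem gN_pow_one {w : List ℕ} (h : w.all inN = true) {n : ℕ} (h1 : W (pw n w) = W []) : (gN w h : Gam) ^ n = 1 := by
  apply Subtype.ext
  rw [coe_gN_pow, h1, W_nil]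
  rfl

/-- the character is rational -/
theorem chi_pow {g : Gam} {j : ℕ} (hj : Nat.Coprime j (orderOf g)) : chi (g ^ j) = chi g := by
  obtain ⟨m, h1, h2⟩ := Cfsg.Agent.H689.exists_coprime_lift (m := j) (a := orderOf g) (N := Nat.card Gam)
    Nat.card_pos.ne' (orderOf_dvd_natCard g) hj
  have h3 := (Cfsg.Agent.Characters.GaloisBasic.exists_rat_iff (isIrr_isCharacter chi_irr) g).1 (chi_rat g) m h1
  rwa [pow_eq_pow_iff_modEq.2 h2] at h3

theorem chi_conj (c g : Gam) : chi (c * g * c⁻¹) = chi g := by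
  rw [chi_eq, chi_eq]
  have h := LinearMap.trace_conj' (((g : Gam) : Space.V ≃ₗ[ℚ] Space.V) : Space.V →ₗ[ℚ] Space.V)
    ((c : Gam) : Space.V ≃ₗ[ℚ] Space.V)
  have e : LinearMap.trace ℚ Space.V (((c * g * c⁻¹ : Gam) : Space.V ≃ₗ[ℚ] Space.V) : Space.V →ₗ[ℚ] Space.V) =
      LinearMap.trace ℚ Space.V (((g : Gam) : Space.V ≃ₗ[ℚ] Space.V) : Space.V →ₗ[ℚ] Space.V) := h
  rw [e]

/-- An element of `C(v)` of order prime to `p` is in `T`. -/
theorem DP.mem_of_pow {G S : Type} [Group G] [Group S] {p : ℕ} {v : G} {T : Subgroup G}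
    (h : DP S p v T) {y : G} (hy : Commute v y) {m : ℕ} (hm : Nat.Coprime m p) (h1 : y ^ m = 1) : y ∈ T := by
  obtain ⟨i, t, ht, rfl⟩ := h.split y (mem_centralizer_singleton_iff.2 hy.symm.eq)
  have hvt : Commute v t := (mem_centralizer_singleton_iff.1 (h.le ht)).symm
  rw [(hvt.pow_left i).mul_pow, ← pow_mul] at h1
  have h2 : v ^ (i * m) ∈ T := by
    rw [eq_inv_of_mul_eq_one_left h1]
    exact T.inv_mem (T.pow_mem ht m)
  have h3 : v ^ (i * m) = 1 := by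
    have h4 : v ^ (i * m) ∈ zpowers v ⊓ T := ⟨Subgroup.pow_mem _ (Subgroup.mem_zpowers v) _, h2⟩
    rw [h.disj.eq_bot, Subgroup.mem_bot] at h4
    exact h4
  have h5 : p ∣ i * m := by rw [← h.ord]; exact orderOf_dvd_of_pow_eq_one h3
  have h6 : p ∣ i := Nat.Coprime.dvd_of_dvd_mul_right hm.symm h5
  have h7 : v ^ i = 1 := by
    obtain ⟨k, rfl⟩ := h6
    rw [pow_mul, ← h.ord, pow_orderOf_eq_one, one_pow]
  rw [h7, one_mul]
  exact ht

/-- **Words of `N` in `⟨v⟩ × T`.** -/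
theorem core {x : centralizer ({zz} : Set Gam)} (hx : orderOf x = 5)
    (hxN : ((x : Gam) : Space.V ≃ₗ[ℚ] Space.V) ∈ Conc.N) {T : Subgroup Gam} (hT : DP Spor.HN 5 (x : Gam) T)
    {w : List ℕ} (hw : w.all inN = true) {m : ℕ} (hm : Nat.Coprime 5 m)
    (h1 : (gN w hw : Gam) ^ (5 * m) = 1) (h5 : (gN w hw : Gam) ^ m ≠ 1) :
    ∃ y ∈ T, y ^ m = 1 ∧ ∀ k : ℕ, Nat.Coprime 5 k → chi ((x : Gam) * y ^ k) = chi ((gN w hw : Gam) ^ k) := by
  obtain ⟨a, ha5, ham⟩ := Nat.chineseRemainder hm 1 0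
  obtain ⟨b, hb5, hbm⟩ := Nat.chineseRemainder hm 0 1
  have : Fact (Nat.Prime 5) := ⟨Nat.prime_five⟩
  have hg1 : gN w hw ^ (5 * m) = 1 := Subtype.ext (by rw [Subgroup.coe_pow, h1]; rfl)
  have hgm : gN w hw ^ m ≠ 1 := fun h => h5 (by rw [← Subgroup.coe_pow, h]; rfl)
  obtain ⟨a', rfl⟩ : m ∣ a := (Nat.modEq_zero_iff_dvd).1 ham
  obtain ⟨b', rfl⟩ : 5 ∣ b := (Nat.modEq_zero_iff_dvd).1 hb5
  -- the 5-part
  have ox : orderOf (gN w hw ^ (m * a')) = 5 := by
    refine orderOf_eq_prime ?_ fun h => ?_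
    · rw [← pow_mul, show m * a' * 5 = 5 * m * a' by ring, pow_mul, hg1, one_pow]
    · apply hgm
      have h2 : gN w hw ^ (m * (m * a')) = gN w hw ^ m := by
        rw [← orderOf_dvd_iff_pow_eq_one] at hg1
        rw [pow_eq_pow_iff_modEq]
        refine Nat.ModEq.of_dvd hg1 ?_
        have h3 : m * (m * a') ≡ m * 1 [MOD m * 5] := Nat.ModEq.mul_left' m ha5
        rwa [mul_one, mul_comm m 5] at h3
      rw [← h2, mul_comm, pow_mul, h, one_pow]
  obtain ⟨c, hc⟩ := exists_conj ox hx (gN_mem hw _) hxN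
  set g : Gam := (gN w hw : Gam) with hg
  have hc' : (c : Gam) * g ^ (m * a') * (c : Gam)⁻¹ = (x : Gam) := by
    rw [← hc]
    rfl
  have hym : ((c : Gam) * g ^ (5 * b') * (c : Gam)⁻¹) ^ m = 1 := by
    rw [conj_pow, ← pow_mul, show 5 * b' * m = 5 * m * b' by ring, pow_mul, h1, one_pow, mul_one, mul_inv_cancel]
  refine ⟨(c : Gam) * g ^ (5 * b') * (c : Gam)⁻¹, ?_, hym, fun k hk => ?_⟩
  · refine DP.mem_of_pow hT ?_ hm.symm hym
    rw [← hc']
    have h2 : Commute (g ^ (m * a')) (g ^ (5 * b')) := (Commute.refl g).pow_pow _ _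
    show (c : Gam) * g ^ (m * a') * (c : Gam)⁻¹ * ((c : Gam) * g ^ (5 * b') * (c : Gam)⁻¹) =
      (c : Gam) * g ^ (5 * b') * (c : Gam)⁻¹ * ((c : Gam) * g ^ (m * a') * (c : Gam)⁻¹)
    have h3 := h2.eq
    calc _ = (c : Gam) * (g ^ (m * a') * g ^ (5 * b')) * (c : Gam)⁻¹ := by group
      _ = (c : Gam) * (g ^ (5 * b') * g ^ (m * a')) * (c : Gam)⁻¹ := by rw [h3]
      _ = _ := by group
  · have e1 : (x : Gam) * ((c : Gam) * g ^ (5 * b') * (c : Gam)⁻¹) ^ k = (c : Gam) * g ^ (m * a' + 5 * b' * k) * (c : Gam)⁻¹ := by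
      rw [← hc', conj_pow, ← pow_mul, pow_add]
      group
    rw [e1, chi_conj]
    -- `k j = 1 mod 5`, `j = 1 mod m`
    obtain ⟨i, hi⟩ := Nat.exists_mul_mod_eq_one_of_coprime hk.symm (by norm_num : 1 < 5)
    obtain ⟨j, hj5, hjm⟩ := Nat.chineseRemainder hm i 1
    have e2 : g ^ (m * a' + 5 * b' * k) = (g ^ k) ^ j := by
      rw [← pow_mul, pow_eq_pow_iff_modEq]
      refine Nat.ModEq.of_dvd (orderOf_dvd_of_pow_eq_one h1) ?_
      refine (Nat.modEq_and_modEq_iff_modEq_mul hm).1 ⟨?_, ?_⟩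
      · have h2 : m * a' + 5 * b' * k ≡ 1 + 0 [MOD 5] :=
          ha5.add ((Nat.modEq_zero_iff_dvd).2 ⟨b' * k, by ring⟩)
        have h3 : k * j ≡ k * i [MOD 5] := hj5.mul_left k
        have h4 : k * i ≡ 1 [MOD 5] := hi.2
        exact h2.trans (h3.trans h4).symm
      · have h2 : m * a' + 5 * b' * k ≡ 0 + 1 * k [MOD m] := ham.add (hbm.mul_right k)
        have h3 : k * j ≡ k * 1 [MOD m] := hjm.mul_left k
        rw [zero_add, one_mul] at h2
        rw [mul_one] at h3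
        exact h2.trans h3.symm
    rw [e2]
    refine chi_pow ?_
    have hj : Nat.Coprime j (5 * m) := by
      refine Nat.Coprime.mul_right ?_ ?_
      · have h2 : k * j ≡ 1 [MOD 5] := (hj5.mul_left k).trans hi.2
        have h3 : Nat.Coprime (k * j) 5 := by
          rw [Nat.coprime_iff_gcd_eq_one, h2.gcd_eq]
          norm_num
        exact h3.coprime_mul_left
      · rw [Nat.coprime_iff_gcd_eq_one, hjm.gcd_eq]
        simp
    refine hj.coprime_dvd_right (orderOf_dvd_of_pow_eq_one ?_)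
    rw [← pow_mul, mul_comm, pow_mul, h1, one_pow]

/-! ### The element `v` -/

theorem u_all : u.all inN = true := by decide

/-- the element `v = W [37, 37]` -/
noncomputable def xu : centralizer ({zz} : Set Gam) := gN u u_all

theorem gN_pow_eq_one {w : List ℕ} (h : w.all inN = true) {n : ℕ} (h1 : W w ^ n = 1) : (gN w h : Gam) ^ n = 1 := by
  apply Subtype.ext
  rw [coe_gN_pow, W_pw, h1]
  rfl

theorem chi_xu : chi (xu : Gam) = 133 := by
  have h := chi_gN u_all u_t1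
  rw [pow_one] at h
  refine h.trans ?_
  norm_num

theorem orderOf_xu : orderOf xu = 5 := by
  have : Fact (Nat.Prime 5) := ⟨Nat.prime_five⟩
  refine orderOf_eq_prime (Subtype.ext ?_) fun h => ?_
  · rw [Subgroup.coe_pow]
    exact gN_pow_eq_one u_all BOrd.u_pow
  · have h1 := chi_xu
    rw [h, Subgroup.coe_one, chi_one] at h1
    norm_num at h1

theorem xu_mem : ((xu : Gam) : Space.V ≃ₗ[ℚ] Space.V) ∈ Conc.N := W_mem_N u_all

theorem exists_dp_xu : ∃ T : Subgroup Gam, DP Spor.HN 5 (xu : Gam) T := exists_dp orderOf_xu xu_mem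

theorem xu_rat (n : ℕ) (hn : n % 5 ≠ 0) : ∃ c : Gam, c * (xu : Gam) * c⁻¹ = (xu : Gam) ^ n := by
  have o : orderOf (xu ^ n) = 5 := by
    have h1 : Nat.Coprime (orderOf xu) n := by
      rw [orderOf_xu, Nat.Prime.coprime_iff_not_dvd Nat.prime_five]
      exact fun h => hn (Nat.mod_eq_zero_of_dvd h)
    rw [h1.orderOf_pow, orderOf_xu]
  obtain ⟨c, hc⟩ := exists_conj orderOf_xu o xu_mem (gN_mem u_all n)
  exact ⟨c, congrArg Subtype.val hc⟩

/-- order of an element by the values of the character -/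
theorem order_of_vals {v y : Gam} {m : ℕ} (hm : 0 < m) (h1 : y ^ m = 1)
    (h : ∀ p : ℕ, p.Prime → p ∣ m → chi (v * y ^ (m / p)) ≠ chi v) : orderOf y = m := by
  refine orderOf_eq_of_pow_and_pow_div_prime hm h1 fun p hp hpm h2 => h p hp hpm ?_
  rw [h2, mul_one]

/-- **The values at the {2,3}-elements of `T`.** -/
structure Vals (v : Gam) (T : Subgroup Gam) : Prop where
  /-- 12B, 6B, 4A, 3A, 2B -/
  b12 : ∃ y ∈ T, orderOf y = 12 ∧ chi (v * y) = -1 ∧ chi (v * y ^ 2) = -1 ∧ chi (v * y ^ 3) = 5 ∧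
    chi (v * y ^ 4) = 7 ∧ chi (v * y ^ 6) = 5
  /-- 12A, 6A, 4B, 3A, 2A -/
  a12 : ∃ y ∈ T, orderOf y = 12 ∧ chi (v * y) = 1 ∧ chi (v * y ^ 2) = 3 ∧ chi (v * y ^ 3) = 1 ∧
    chi (v * y ^ 4) = 7 ∧ chi (v * y ^ 6) = 21
  /-- 8A, 4B, 2A -/
  a8 : ∃ y ∈ T, orderOf y = 8 ∧ chi (v * y) = -1 ∧ chi (v * y ^ 2) = 1 ∧ chi (v * y ^ 4) = 21
  /-- 8B, 4A, 2B -/
  b8 : ∃ y ∈ T, orderOf y = 8 ∧ chi (v * y) = 1 ∧ chi (v * y ^ 2) = 5 ∧ chi (v * y ^ 4) = 5
  /-- 4C, 2B -/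
  c4 : ∃ y ∈ T, orderOf y = 4 ∧ chi (v * y) = -3 ∧ chi (v * y ^ 2) = 5

theorem ne_of {w : List ℕ} (h : w.all inN = true) {n : ℕ} (h1 : W w ^ n ≠ 1) : (gN w h : Gam) ^ n ≠ 1 := by
  intro h2
  apply h1
  have h3 := congrArg (fun g : Gam => (g : Space.V ≃ₗ[ℚ] Space.V)) h2
  exact h3

theorem cast_ne {a b : ℤ} (h : a ≠ b) : ((a : ℤ) : ℂ) ≠ ((b : ℤ) : ℂ) := fun h1 => h (by exact_mod_cast h1)

theorem prime_dvd_two_pow {p : ℕ} (hp : p.Prime) {k : ℕ} (h : p ∣ 2 ^ k) : p = 2 :=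
  (Nat.prime_dvd_prime_iff_eq hp Nat.prime_two).1 (hp.dvd_of_dvd_pow h)

/-- **The values.** -/
theorem vals {T : Subgroup Gam} (hT : DP Spor.HN 5 (xu : Gam) T) : Vals (xu : Gam) T where
  b12 := by
    have hw : wA.all inN = true := by decide
    obtain ⟨y, hyT, hy, hv⟩ := core orderOf_xu xu_mem hT hw (m := 12) (by norm_num)
      (gN_pow_eq_one hw BOrd.wA_pow) (ne_of hw BOrd.wA_ne)
    have v1 : chi ((xu : Gam) * y) = -1 := by
      have h := (hv 1 (by norm_num)).trans (chi_gN hw wA_t1)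
      rw [pow_one] at h
      exact h.trans (by norm_num)
    have v2 : chi ((xu : Gam) * y ^ 2) = -1 := ((hv 2 (by norm_num)).trans (chi_gN hw wA_t2)).trans (by norm_num)
    have v3 : chi ((xu : Gam) * y ^ 3) = 5 := ((hv 3 (by norm_num)).trans (chi_gN hw wA_t3)).trans (by norm_num)
    have v4 : chi ((xu : Gam) * y ^ 4) = 7 := ((hv 4 (by norm_num)).trans (chi_gN hw wA_t4)).trans (by norm_num)
    have v6 : chi ((xu : Gam) * y ^ 6) = 5 := ((hv 6 (by norm_num)).trans (chi_gN hw wA_t6)).trans (by norm_num)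
    refine ⟨y, hyT, order_of_vals (v := (xu : Gam)) (by norm_num) hy fun p hp hpm => ?_, v1, v2, v3, v4, v6⟩
    rw [chi_xu]
    have h1 : p ∣ 2 ^ 2 * 3 := hpm
    rcases (Nat.Prime.dvd_mul hp).1 h1 with h2 | h2
    · rw [prime_dvd_two_pow hp h2]
      show chi ((xu : Gam) * y ^ 6) ≠ 133
      rw [v6]; norm_num
    · rw [(Nat.prime_dvd_prime_iff_eq hp Nat.prime_three).1 h2]
      show chi ((xu : Gam) * y ^ 4) ≠ 133
      rw [v4]; norm_num
  a12 := by
    have hw : wB.all inN = true := by decide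
    obtain ⟨y, hyT, hy, hv⟩ := core orderOf_xu xu_mem hT hw (m := 12) (by norm_num)
      (gN_pow_eq_one hw BOrd.wB_pow) (ne_of hw BOrd.wB_ne)
    have v1 : chi ((xu : Gam) * y) = 1 := by
      have h := (hv 1 (by norm_num)).trans (chi_gN hw wB_t1)
      rw [pow_one] at h
      exact h.trans (by norm_num)
    have v2 : chi ((xu : Gam) * y ^ 2) = 3 := ((hv 2 (by norm_num)).trans (chi_gN hw wB_t2)).trans (by norm_num)
    have v3 : chi ((xu : Gam) * y ^ 3) = 1 := ((hv 3 (by norm_num)).trans (chi_gN hw wB_t3)).trans (by norm_num)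
    have v4 : chi ((xu : Gam) * y ^ 4) = 7 := ((hv 4 (by norm_num)).trans (chi_gN hw wB_t4)).trans (by norm_num)
    have v6 : chi ((xu : Gam) * y ^ 6) = 21 := ((hv 6 (by norm_num)).trans (chi_gN hw wB_t6)).trans (by norm_num)
    refine ⟨y, hyT, order_of_vals (v := (xu : Gam)) (by norm_num) hy fun p hp hpm => ?_, v1, v2, v3, v4, v6⟩
    rw [chi_xu]
    have h1 : p ∣ 2 ^ 2 * 3 := hpm
    rcases (Nat.Prime.dvd_mul hp).1 h1 with h2 | h2
    · rw [prime_dvd_two_pow hp h2]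
      show chi ((xu : Gam) * y ^ 6) ≠ 133
      rw [v6]; norm_num
    · rw [(Nat.prime_dvd_prime_iff_eq hp Nat.prime_three).1 h2]
      show chi ((xu : Gam) * y ^ 4) ≠ 133
      rw [v4]; norm_num
  a8 := by
    have hw : wC.all inN = true := by decide
    obtain ⟨y, hyT, hy, hv⟩ := core orderOf_xu xu_mem hT hw (m := 8) (by norm_num)
      (gN_pow_eq_one hw BOrd.wC_pow) (ne_of hw BOrd.wC_ne)
    have v1 : chi ((xu : Gam) * y) = -1 := by
      have h := (hv 1 (by norm_num)).trans (chi_gN hw wC_t1)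
      rw [pow_one] at h
      exact h.trans (by norm_num)
    have v2 : chi ((xu : Gam) * y ^ 2) = 1 := ((hv 2 (by norm_num)).trans (chi_gN hw wC_t2)).trans (by norm_num)
    have v4 : chi ((xu : Gam) * y ^ 4) = 21 := ((hv 4 (by norm_num)).trans (chi_gN hw wC_t4)).trans (by norm_num)
    refine ⟨y, hyT, order_of_vals (v := (xu : Gam)) (by norm_num) hy fun p hp hpm => ?_, v1, v2, v4⟩
    rw [chi_xu]
    have h1 : p ∣ 2 ^ 3 := hpm
    rw [prime_dvd_two_pow hp h1]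
    show chi ((xu : Gam) * y ^ 4) ≠ 133
    rw [v4]; norm_num
  b8 := by
    have hw : wD.all inN = true := by decide
    obtain ⟨y, hyT, hy, hv⟩ := core orderOf_xu xu_mem hT hw (m := 8) (by norm_num)
      (gN_pow_eq_one hw BOrd.wD_pow) (ne_of hw BOrd.wD_ne)
    have v1 : chi ((xu : Gam) * y) = 1 := by
      have h := (hv 1 (by norm_num)).trans (chi_gN hw wD_t1)
      rw [pow_one] at h
      exact h.trans (by norm_num)
    have v2 : chi ((xu : Gam) * y ^ 2) = 5 := ((hv 2 (by norm_num)).trans (chi_gN hw wD_t2)).trans (by norm_num)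
    have v4 : chi ((xu : Gam) * y ^ 4) = 5 := ((hv 4 (by norm_num)).trans (chi_gN hw wD_t4)).trans (by norm_num)
    refine ⟨y, hyT, order_of_vals (v := (xu : Gam)) (by norm_num) hy fun p hp hpm => ?_, v1, v2, v4⟩
    rw [chi_xu]
    have h1 : p ∣ 2 ^ 3 := hpm
    rw [prime_dvd_two_pow hp h1]
    show chi ((xu : Gam) * y ^ 4) ≠ 133
    rw [v4]; norm_num
  c4 := by
    have hw : wE.all inN = true := by decide
    obtain ⟨y, hyT, hy, hv⟩ := core orderOf_xu xu_mem hT hw (m := 4) (by norm_num)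
      (gN_pow_eq_one hw BOrd.wE_pow) (ne_of hw BOrd.wE_ne)
    have v1 : chi ((xu : Gam) * y) = -3 := by
      have h := (hv 1 (by norm_num)).trans (chi_gN hw wE_t1)
      rw [pow_one] at h
      exact h.trans (by norm_num)
    have v2 : chi ((xu : Gam) * y ^ 2) = 5 := ((hv 2 (by norm_num)).trans (chi_gN hw wE_t2)).trans (by norm_num)
    refine ⟨y, hyT, order_of_vals (v := (xu : Gam)) (by norm_num) hy fun p hp hpm => ?_, v1, v2⟩
    rw [chi_xu]
    have h1 : p ∣ 2 ^ 2 := hpm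
    rw [prime_dvd_two_pow hp h1]
    show chi ((xu : Gam) * y ^ 2) ≠ 133
    rw [v2]; norm_num

/-- **(b1)** of (M,23). -/
theorem main : ∃ (v : Gam) (T : Subgroup Gam), DP Spor.HN 5 v T ∧
    (∀ n : ℕ, n % 5 ≠ 0 → ∃ c : Gam, c * v * c⁻¹ = v ^ n) ∧ chi v = 133 ∧ Vals v T := by
  obtain ⟨T, hT⟩ := exists_dp_xu
  exact ⟨xu, T, hT, xu_rat, chi_xu, vals hT⟩

end Cfsg.Agent.H136.M23.BWords
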