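import Cfsg.Agent.H136.M23.BWords
import Cfsg.Agent.H66.M23.Five
import Cfsg.Agent.H616.M23.Val

/-!
# The involution `z` in `C(v) = ⟨v⟩ × HN` and the words of [BETA] (helper136)

`card_cz` : `|C_T(z)| = 3686400`; `words` : `H616.M23.Words` for `v = W [37, 37]`.
-/

set_option autoImplicit false
set_option maxRecDepth 100000

namespace Cfsg.Agent.H136.M23.BZ

open Cfsg Cfsg.Agent.H241.Mon Cfsg.Agent.MonsterX.MainBasic
open Cfsg.Agent.MonsterX Cfsg.Agent.MonsterX.InstData Cfsg.Agent.MonsterU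
open Subgroup (centralizer zpowers mem_centralizer_singleton_iff)
open Cfsg.Agent.MonsterX.Conc Cfsg.Agent.MonsterX.ConcGrp
open Cfsg.Agent.H66.M23.Loc Cfsg.Agent.H136.M23.BTr Cfsg.Agent.H136.M23.BMon Cfsg.Agent.H136.M23.BWords
open Cfsg.Agent.H875.M23.TraceChar (chi chi_eq chi_irr chi_one chi_rat)
open Cfsg.Agent.LThreeMB (fr XX KChart.pi)
open Cfsg.Spor (Co1)

/-- a conjugate of `x` induces `xx` -/
theorem exists_xx {x : centralizer ({zz} : Set Gam)} (hx : orderOf x = 5)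
    (hN : ((x : Gam) : Space.V ≃ₗ[ℚ] Space.V) ∈ Conc.N) :
    ∃ c : centralizer ({zz} : Set Gam), KChart.pi MFive.Row.hc (c * x * c⁻¹) = MFiveHN.Cent.xx := by
  obtain ⟨s, hs⟩ := isConj_iff.1 (CoFive.Ranks.isConj_of_fr (MFive.orderOf_pi chart Nat.prime_five (by decide) hx)
    MFiveHN.Cent.order_x ((fr_eq hx hN).trans MFiveHN.Inst.fr_xx.symm))
  obtain ⟨c, hc⟩ := chart.pi_surj s
  exact ⟨c, by rw [map_mul, map_mul, map_inv, hc, hs]⟩

/-- **`z` is in `T`, `|C_T(z)| = 3686400`.** -/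
theorem card_cz {x : centralizer ({zz} : Set Gam)} (hx : orderOf x = 5)
    (hN : ((x : Gam) : Space.V ≃ₗ[ℚ] Space.V) ∈ Conc.N) {T : Subgroup Gam} (hT : DP Spor.HN 5 (x : Gam) T) :
    ∃ z : T, (z : Gam) = zz ∧ orderOf z = 2 ∧ Nat.card (centralizer ({z} : Set T)) = 3686400 := by
  have hfin : Finite Gam := inferInstance
  obtain ⟨e⟩ := hT.iso
  have hoz : orderOf (zz : Gam) = 2 := Cfsg.Agent.BpSpor.MBigModel.orderOf_zz
  have hzz : (zz : Gam) ^ 2 = 1 := by rw [← hoz, pow_orderOf_eq_one]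
  have hzx : zz * (x : Gam) = x * zz := (mem_centralizer_singleton_iff.1 x.2).symm
  have hzT : (zz : Gam) ∈ T := H66.M23.Five.DP.mem_of_pow Nat.prime_five hT hzz (by norm_num) hzx
  let z' : T := ⟨zz, hzT⟩
  have hz' : orderOf z' = 2 := by rw [← hoz]; exact Subgroup.orderOf_mk zz _
  refine ⟨z', rfl, hz', ?_⟩
  rcases H66.M23.Five.two_conj e hz' with ⟨-, h⟩ | ⟨-, h⟩
  · exfalso
    have : Fact (Nat.Prime 7) := ⟨by norm_num⟩
    obtain ⟨w, hw⟩ := exists_prime_orderOf_dvd_card' 7 (show 7 ∣ Nat.card (centralizer ({z'} : Set T)) by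
      rw [h]; norm_num)
    have h1 : orderOf (((w : T) : Gam)) = 7 := by rw [Subgroup.orderOf_coe, Subgroup.orderOf_coe, hw]
    have h2 : ((w : T) : Gam) * zz = zz * ((w : T) : Gam) :=
      congrArg Subtype.val (mem_centralizer_singleton_iff.1 w.2)
    have h3 : ((w : T) : Gam) * (x : Gam) = x * ((w : T) : Gam) :=
      mem_centralizer_singleton_iff.1 (hT.le (w : T).2)
    obtain ⟨c, hc⟩ := exists_xx hx hN
    have hcz : (c : Gam) * zz = zz * c := mem_centralizer_singleton_iff.1 c.2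
    have hcz' : (c : Gam) * zz * (c : Gam)⁻¹ = zz := by rw [hcz, mul_inv_cancel_right]
    refine H66.M23.Five.card_inf_dvd (w := 7) (by norm_num) (by decide) (by norm_num) (u := c * x * c⁻¹) hc
      (g := (c : Gam) * ((w : T) : Gam) * (c : Gam)⁻¹) ?_ ?_ ?_
    · rw [← h1]
      exact MulEquiv.orderOf_eq (MulAut.conj (c : Gam)) _
    · have h4 : (c : Gam) * ((w : T) : Gam) * (c : Gam)⁻¹ * ((c : Gam) * zz * (c : Gam)⁻¹) =
          (c : Gam) * zz * (c : Gam)⁻¹ * ((c : Gam) * ((w : T) : Gam) * (c : Gam)⁻¹) := by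
        calc _ = (c : Gam) * (((w : T) : Gam) * zz) * (c : Gam)⁻¹ := by group
          _ = (c : Gam) * (zz * ((w : T) : Gam)) * (c : Gam)⁻¹ := by rw [h2]
          _ = _ := by group
      rw [hcz'] at h4
      exact h4
    · show (c : Gam) * ((w : T) : Gam) * (c : Gam)⁻¹ * ((c : Gam) * (x : Gam) * (c : Gam)⁻¹) =
          (c : Gam) * (x : Gam) * (c : Gam)⁻¹ * ((c : Gam) * ((w : T) : Gam) * (c : Gam)⁻¹)
      calc _ = (c : Gam) * (((w : T) : Gam) * (x : Gam)) * (c : Gam)⁻¹ := by group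
        _ = (c : Gam) * ((x : Gam) * ((w : T) : Gam)) * (c : Gam)⁻¹ := by rw [h3]
        _ = _ := by group
  · exact h

theorem uz_all : uz.all inN = true := by decide

/-- `chi (v z) = 5` -/
theorem chi_xz : chi ((xu : Gam) * zz) = 5 := by
  have h := chi_gN uz_all uz_t1
  rw [pow_one] at h
  have e : (gN uz uz_all : Gam) = zz * (xu : Gam) := by
    apply Subtype.ext
    have h1 : W uz = E 45 * W u := by
      show W ([37, 37] ++ [45]) = _
      rw [W_append, W_single]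
      rfl
    have h2 : ((zz : Gam) : Space.V ≃ₗ[ℚ] Space.V) = E 45 := KDone.lnk.z_eq.symm
    show W uz = ((zz : Gam) : Space.V ≃ₗ[ℚ] Space.V) * W u
    rw [h2, h1]
  rw [e] at h
  have h3 : (xu : Gam) * zz = zz * (xu : Gam) := mem_centralizer_singleton_iff.1 xu.2
  rw [h3]
  exact h.trans (by norm_num)

/-- **The words of [BETA].** -/
theorem words {T : Subgroup Gam} (hT : DP Spor.HN 5 (xu : Gam) T) (e : Spor.HN ≃* T) (b : Spor.HN → ℤ)
    (hb : ∀ h, chi ((xu : Gam) * (e h : Gam)) = b h) : H616.M23.Words b := by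
  have V := vals hT
  have key : ∀ y : Gam, (hy : y ∈ T) → ∀ k : ℕ, ∀ n : ℤ, chi ((xu : Gam) * y ^ k) = n →
      b ((e.symm ⟨y, hy⟩) ^ k) = n := by
    intro y hy k n h
    have h1 := hb ((e.symm ⟨y, hy⟩) ^ k)
    rw [map_pow, e.apply_symm_apply] at h1
    have h2 : chi ((xu : Gam) * y ^ k) = b ((e.symm ⟨y, hy⟩) ^ k) := h1
    rw [h] at h2
    exact_mod_cast h2.symm
  have ord : ∀ y : Gam, (hy : y ∈ T) → orderOf (e.symm ⟨y, hy⟩) = orderOf y := by
    intro y hy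
    rw [e.symm.orderOf_eq, Subgroup.orderOf_mk]
  have key1 : ∀ y : Gam, (hy : y ∈ T) → ∀ n : ℤ, chi ((xu : Gam) * y) = n → b (e.symm ⟨y, hy⟩) = n := by
    intro y hy n h
    have h1 := key y hy 1 n (by rw [pow_one]; exact h)
    rwa [pow_one] at h1
  refine ⟨?_, ?_, ?_, ?_, ?_, ?_⟩
  · obtain ⟨y, hy, o, v1, v2, v3, v4, v6⟩ := V.b12
    exact ⟨e.symm ⟨y, hy⟩, by rw [ord, o], key1 y hy _ (by rw [v1]; norm_num), key y hy 2 _ (by rw [v2]; norm_num),
      key y hy 3 _ (by rw [v3]; norm_num), key y hy 4 _ (by rw [v4]; norm_num), key y hy 6 _ (by rw [v6]; norm_num)⟩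
  · obtain ⟨y, hy, o, v1, v2, v3, v4, v6⟩ := V.a12
    exact ⟨e.symm ⟨y, hy⟩, by rw [ord, o], key1 y hy _ (by rw [v1]; norm_num), key y hy 2 _ (by rw [v2]; norm_num),
      key y hy 3 _ (by rw [v3]; norm_num), key y hy 4 _ (by rw [v4]; norm_num), key y hy 6 _ (by rw [v6]; norm_num)⟩
  · obtain ⟨y, hy, o, v1, v2, v4⟩ := V.a8
    exact ⟨e.symm ⟨y, hy⟩, by rw [ord, o], key1 y hy _ (by rw [v1]; norm_num), key y hy 2 _ (by rw [v2]; norm_num),
      key y hy 4 _ (by rw [v4]; norm_num)⟩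
  · obtain ⟨y, hy, o, v1, v2, v4⟩ := V.b8
    exact ⟨e.symm ⟨y, hy⟩, by rw [ord, o], key1 y hy _ (by rw [v1]; norm_num), key y hy 2 _ (by rw [v2]; norm_num),
      key y hy 4 _ (by rw [v4]; norm_num)⟩
  · obtain ⟨y, hy, o, v1, v2⟩ := V.c4
    exact ⟨e.symm ⟨y, hy⟩, by rw [ord, o], key1 y hy _ (by rw [v1]; norm_num), key y hy 2 _ (by rw [v2]; norm_num)⟩
  · obtain ⟨z, hz, o, hc⟩ := card_cz orderOf_xu xu_mem hT
    refine ⟨e.symm z, by rw [e.symm.orderOf_eq, o], ?_, ?_⟩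
    · rw [← hc]
      exact (H66.M23.Five.card_cent_equiv e.symm z).symm
    · have h1 := hb (e.symm z)
      rw [e.apply_symm_apply, hz, chi_xz] at h1
      exact_mod_cast h1.symm

/-- **(b1)**, complete: one `v`, `T`, and the words for every identification `T ≅ HN`. -/
theorem main : ∃ (v : Gam) (T : Subgroup Gam), DP Spor.HN 5 v T ∧
    (∀ n : ℕ, n % 5 ≠ 0 → ∃ c : Gam, c * v * c⁻¹ = v ^ n) ∧ chi v = 133 ∧
    (∃ z : T, (z : Gam) = zz ∧ orderOf z = 2 ∧ Nat.card (centralizer ({z} : Set T)) = 3686400 ∧ chi (v * zz) = 5) ∧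
    ∀ (e : Spor.HN ≃* T) (b : Spor.HN → ℤ), (∀ h, chi (v * (e h : Gam)) = b h) → H616.M23.Words b := by
  obtain ⟨T, hT⟩ := exists_dp_xu
  obtain ⟨z, h1, h2, h3⟩ := card_cz orderOf_xu xu_mem hT
  exact ⟨xu, T, hT, xu_rat, chi_xu, ⟨z, h1, h2, h3, chi_xz⟩, words hT⟩

end Cfsg.Agent.H136.M23.BZ
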